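import Cfsg.Agent.Lib.Chev.Twisted.G2Orders
import Cfsg.Agent.Lib.PSL2.Sylow2

/-! Solvable subgroups of the small Ree groups lie in local normalisers. -/

set_option autoImplicit false

open Cfsg Cfsg.Lie
open CfsgLib.Chev CfsgLib.Chev.Checks CfsgLib.Chev.Basic

namespace CfsgLib.Chev.Twisted.ReeG2

/-- an elementary abelian normal subgroup of a nontrivial solvable group -/
theorem elem_normal {G : Type*} [Group G] [Finite G] [Nontrivial G] (h : Group.IsSolvable G) :
    ∃ p : ℕ, p.Prime ∧ ∃ E : Subgroup G, E.Normal ∧ E ≠ ⊥ ∧ (∀ a ∈ E, ∀ b ∈ E, a * b = b * a) ∧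
      ∀ a ∈ E, a ^ p = 1 := by
  classical
  haveI := h
  obtain ⟨n, hn⟩ := (Group.isSolvable_def G).1 h
  have hex : ∃ n, derivedSeries G n = ⊥ := ⟨n, hn⟩
  obtain ⟨k, hk⟩ : ∃ k, Nat.find hex = k + 1 := by
    refine ⟨Nat.find hex - 1, ?_⟩
    have : Nat.find hex ≠ 0 := fun h0 => by
      have := Nat.find_spec hex
      rw [h0, derivedSeries_zero] at this
      exact top_ne_bot this
    omega
  have hN1 : derivedSeries G (k + 1) = ⊥ := hk ▸ Nat.find_spec hex
  have hN0 : derivedSeries G k ≠ ⊥ := fun h0 => by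
    have := Nat.find_min' hex h0
    omega
  set N := derivedSeries G k with hN
  haveI : N.Normal := derivedSeries_normal G k
  have hab : ∀ a ∈ N, ∀ b ∈ N, a * b = b * a := fun a ha b hb => by
    rw [derivedSeries_succ] at hN1
    have h1 := Subgroup.commutator_mem_commutator ha hb
    rw [hN1, Subgroup.mem_bot, commutatorElement_eq_one_iff_mul_comm] at h1
    exact h1
  obtain ⟨p, hp, hpd⟩ := Nat.exists_prime_and_dvd (n := Nat.card N) (fun h1 => hN0 (Subgroup.eq_bot_of_card_eq N h1))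
  haveI := Fact.mk hp
  let E : Subgroup G :=
    { carrier := {a | a ∈ N ∧ a ^ p = 1}
      one_mem' := ⟨one_mem _, one_pow p⟩
      mul_mem' := fun {a b} ha hb =>
        ⟨mul_mem ha.1 hb.1, by rw [(show Commute a b from hab a ha.1 b hb.1).mul_pow, ha.2, hb.2, one_mul]⟩
      inv_mem' := fun {a} ha => ⟨inv_mem ha.1, by rw [inv_pow, ha.2, inv_one]⟩ }
  refine ⟨p, hp, E, ⟨fun a ha g => ⟨(inferInstance : N.Normal).conj_mem a ha.1 g, by rw [conj_pow, ha.2]; group⟩⟩,
    fun hE => ?_, fun a ha b hb => hab a ha.1 b hb.1, fun a ha => ha.2⟩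
  obtain ⟨x, hx⟩ := exists_prime_orderOf_dvd_card' (G := N) p hpd
  have hxp : (x : G) ^ p = 1 := by rw [← hx, ← Subgroup.orderOf_coe, pow_orderOf_eq_one]
  have hxE : (x : G) ∈ E := ⟨x.2, hxp⟩
  rw [hE, Subgroup.mem_bot] at hxE
  rw [← Subgroup.orderOf_coe, hxE, orderOf_one] at hx
  exact hp.one_lt.ne hx

variable {K : Type*} [Field K] [Fintype K] {m : ℕ}

/-- the normalisers in which the solvable subgroups lie -/
def LocalNorm (K : Type*) [Field K] [Fintype K] (m : ℕ) (S : Subgroup ↥(twistedG2 K (3 ^ m))) : Prop :=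
  ∃ A : Subgroup ↥(twistedG2 K (3 ^ m)), S ≤ Subgroup.normalizer (A : Set ↥(twistedG2 K (3 ^ m))) ∧
    ((∃ P : Sylow 2 ↥(twistedG2 K (3 ^ m)), A = P) ∨
     (∃ P : Sylow 3 ↥(twistedG2 K (3 ^ m)), A = P) ∨
     (IsCyclic A ∧ (Nat.card A = (Fintype.card K - 1) / 2 ∨ Nat.card A = (Fintype.card K + 1) / 4 ∨
        Nat.card A = Fintype.card K - 3 ^ (m + 1) + 1 ∨ Nat.card A = Fintype.card K + 3 ^ (m + 1) + 1)))

variable (hK : Fintype.card K = 3 ^ (2 * m + 1))
include hK

theorem sylow_two_card (P : Sylow 2 ↥(twistedG2 K (3 ^ m))) :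
    Nat.card (P : Subgroup ↥(twistedG2 K (3 ^ m))) = 8 := by
  obtain ⟨ha1, ha2⟩ := inv0_spec hK
  exact ((involution_centralizer hK (inv0 hK) ((Torus.range_torusHom mem_data).le ⟨_, rfl⟩) ha1 ha2).2 P).1

/-- the centraliser of a four group has order `2(q+1)` -/
theorem four_cent (hm : 1 ≤ m) {z v : ↥(twistedG2 K (3 ^ m))} (hz : z * z = 1) (hz1 : z ≠ 1) (hv : v * v = 1)
    (hv1 : v ≠ 1) (hvz : v ≠ z) (hc : Commute v z) :
    Nat.card ↥(Subgroup.centralizer ({z} : Set ↥(twistedG2 K (3 ^ m))) ⊓ Subgroup.centralizer {v}) =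
      2 * (Fintype.card K + 1) := by
  classical
  haveI := char_three hK
  haveI := Fact.mk Nat.prime_two
  obtain ⟨g, hg⟩ := invol_conj hK hm hz1 hz
  obtain ⟨ha1, ha2⟩ := inv0_spec hK
  obtain ⟨⟨e⟩, -⟩ := involution_centralizer hK (inv0 hK) ((Torus.range_torusHom mem_data).le ⟨_, rfl⟩) ha1 ha2
  set C := Subgroup.centralizer ({inv0 hK} : Set ↥(twistedG2 K (3 ^ m)))
  let π₂ : C →* Matrix.ProjectiveSpecialLinearGroup (Fin 2) K := (MonoidHom.snd _ _).comp e.toMonoidHom
  have hπ : Function.Surjective π₂ := fun s => ⟨e.symm (1, s), by simp [π₂]⟩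
  have hfst : ∀ a b : C, π₂ a * π₂ b = π₂ b * π₂ a → a * b = b * a := fun a b h => e.injective (by
    rw [map_mul, map_mul]; exact Prod.ext (mul_comm _ _) h)
  have hπker : Nat.card π₂.ker = 2 := by
    have h := Subgroup.card_mul_index π₂.ker
    rw [Subgroup.index_ker, MonoidHom.range_eq_top.2 hπ, Subgroup.card_top, Nat.card_congr e.toEquiv, Nat.card_prod,
      Nat.card_eq_fintype_card (α := Multiplicative (ZMod 2)),
      show Fintype.card (Multiplicative (ZMod 2)) = 2 from rfl] at h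
    exact Nat.eq_of_mul_eq_mul_right Nat.card_pos h
  set v' := g⁻¹ * v * g with hv'
  have hv'C : v' ∈ C := by
    rw [Subgroup.mem_centralizer_singleton_iff, hv', show inv0 hK = g⁻¹ * z * g by rw [← hg]; group,
      show g⁻¹ * v * g * (g⁻¹ * z * g) = g⁻¹ * (v * z) * g by group, hc.eq]
    group
  have hv'1 : v' ≠ 1 := fun h => hv1 (by
    have := congrArg (fun y => g * y * g⁻¹) h
    simpa [hv', mul_assoc] using this)
  have haC : inv0 hK ∈ C := Subgroup.mem_centralizer_singleton_iff.2 rfl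
  have hac : ∀ y : C, (⟨inv0 hK, haC⟩ : C) * y = y * ⟨inv0 hK, haC⟩ := fun y =>
    Subtype.ext (Subgroup.mem_centralizer_singleton_iff.1 y.2).symm
  have hodd : Fintype.card K % 2 = 1 := by have := card_mod hK; omega
  -- the kernel is generated by the involution
  have haker : π₂ ⟨inv0 hK, haC⟩ = 1 := by
    by_contra h
    have ho : orderOf (π₂ ⟨inv0 hK, haC⟩) = 2 :=
      orderOf_eq_prime (by rw [pow_two, ← map_mul, show (⟨inv0 hK, haC⟩ : C) * ⟨inv0 hK, haC⟩ = 1 from
        Subtype.ext ha2, map_one]) h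
    obtain ⟨w, hw⟩ := CfsgLib.PSL2Klein.exists_conj_x₀ hodd ho
    have hcen : ∀ s, π₂ ⟨inv0 hK, haC⟩ * s = s * π₂ ⟨inv0 hK, haC⟩ := fun s => by
      obtain ⟨y, rfl⟩ := hπ s
      rw [← map_mul, hac, map_mul]
    have hcard : Nat.card (Subgroup.centralizer ({CfsgLib.PSL2Klein.x₀ (F := K)} : Set _)) =
        Nat.card (Matrix.ProjectiveSpecialLinearGroup (Fin 2) K) := by
      rw [show Subgroup.centralizer ({CfsgLib.PSL2Klein.x₀ (F := K)} : Set _) = ⊤ from eq_top_iff.2 fun s _ => by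
        rw [Subgroup.mem_centralizer_singleton_iff, ← hw]
        have := hcen (w⁻¹ * s * w)
        calc s * (w * π₂ ⟨inv0 hK, haC⟩ * w⁻¹) = w * (w⁻¹ * s * w * π₂ ⟨inv0 hK, haC⟩) * w⁻¹ := by group
          _ = w * (π₂ ⟨inv0 hK, haC⟩ * (w⁻¹ * s * w)) * w⁻¹ := by rw [this]
          _ = _ := by group, Subgroup.card_top]
    rw [CfsgLib.PSL2Klein.card_centralizer hodd, (CfsgLib.PSL2Two.card_rot' (F := K) hodd).2 (card_mod hK)] at hcard
    have h2 := CfsgLib.PSL2Two.two_mul_card_PSL (F := K) hodd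
    rw [← hcard] at h2
    have h3 := (q_facts hK hm).1
    have h4 : Fintype.card K ^ 2 - 1 = (Fintype.card K + 1) * (Fintype.card K - 1) := (q_sq hK hm).1
    rw [h4] at h2
    have : 27 * (Fintype.card K + 1) * 26 ≤ Fintype.card K * ((Fintype.card K + 1) * (Fintype.card K - 1)) := by
      rw [← mul_assoc]; exact Nat.mul_le_mul (Nat.mul_le_mul_right _ h3) (by omega)
    nlinarith
  have hb1 : π₂ ⟨v', hv'C⟩ ≠ 1 := by
    intro h
    haveI := Fintype.ofFinite π₂.ker
    obtain ⟨a, b, hab, huniv⟩ := Nat.card_eq_two_iff.1 hπker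
    have hne : (⟨⟨inv0 hK, haC⟩, haker⟩ : π₂.ker) ≠ 1 := fun h => ha1 (congrArg (fun y : π₂.ker => ((y.1 : C) : ↥(twistedG2 K (3 ^ m)))) h)
    have hall : ∀ y : π₂.ker, y = 1 ∨ y = ⟨⟨inv0 hK, haC⟩, haker⟩ := fun y => by
      have h1 : ∀ u : π₂.ker, u = a ∨ u = b := fun u => by
        have := huniv.ge (Set.mem_univ u)
        simpa using this
      rcases h1 y with rfl | rfl <;> rcases h1 1 with e1 | e1 <;> rcases h1 ⟨⟨inv0 hK, haC⟩, haker⟩ with e2 | e2 <;>
        first | exact Or.inl e1.symm | exact Or.inr e2.symm | exact absurd (e2.trans e1.symm) hne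
    rcases hall ⟨⟨v', hv'C⟩, h⟩ with e' | e'
    · exact hv'1 (congrArg (fun y : π₂.ker => ((y.1 : C) : ↥(twistedG2 K (3 ^ m)))) e')
    · refine hvz ?_
      have e2 : v' = inv0 hK := congrArg (fun y : π₂.ker => ((y.1 : C) : ↥(twistedG2 K (3 ^ m)))) e'
      rw [← hg, ← e2, hv']
      group
  have hbo : orderOf (π₂ ⟨v', hv'C⟩) = 2 := orderOf_eq_prime (by
    rw [pow_two, ← map_mul, show (⟨v', hv'C⟩ : C) * ⟨v', hv'C⟩ = 1 from Subtype.ext (by
      show v' * v' = 1
      rw [hv', show g⁻¹ * v * g * (g⁻¹ * v * g) = g⁻¹ * (v * v) * g by group, hv]; group), map_one]) hb1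
  obtain ⟨w, hw⟩ := CfsgLib.PSL2Klein.exists_conj_x₀ hodd hbo
  have hcC : Nat.card (Subgroup.centralizer ({π₂ ⟨v', hv'C⟩} : Set (Matrix.ProjectiveSpecialLinearGroup (Fin 2) K))) =
      Fintype.card K + 1 := by
    rw [← (CfsgLib.PSL2Two.card_rot' (F := K) hodd).2 (card_mod hK), ← CfsgLib.PSL2Klein.card_centralizer hodd,
      ← hw, cent_conj, Subgroup.card_map_of_injective (MulAut.conj w).injective]
  have hmap : (Subgroup.centralizer ({z} : Set ↥(twistedG2 K (3 ^ m))) ⊓ Subgroup.centralizer {v}) =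
      (((Subgroup.centralizer ({π₂ ⟨v', hv'C⟩} : Set (Matrix.ProjectiveSpecialLinearGroup (Fin 2) K))).comap π₂).map
        C.subtype).map (MulAut.conj g).toMonoidHom := by
    ext y
    rw [Subgroup.mem_map_equiv, Subgroup.mem_inf, MulAut.conj_symm_apply, Subgroup.mem_centralizer_singleton_iff,
      Subgroup.mem_centralizer_singleton_iff]
    constructor
    · rintro ⟨h1, h2⟩
      have hyC : g⁻¹ * y * g ∈ C := by
        rw [Subgroup.mem_centralizer_singleton_iff, show inv0 hK = g⁻¹ * z * g by rw [← hg]; group,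
          show g⁻¹ * y * g * (g⁻¹ * z * g) = g⁻¹ * (y * z) * g by group, h1]
        group
      refine ⟨⟨_, hyC⟩, Subgroup.mem_comap.2 (Subgroup.mem_centralizer_singleton_iff.2 ?_), rfl⟩
      rw [← map_mul, ← map_mul]
      refine congrArg π₂ (Subtype.ext ?_)
      show g⁻¹ * y * g * v' = v' * (g⁻¹ * y * g)
      rw [hv', show g⁻¹ * y * g * (g⁻¹ * v * g) = g⁻¹ * (y * v) * g by group, h2]
      group
    · rintro ⟨⟨y', hy'⟩, hy, e'⟩
      replace e' : y' = g⁻¹ * y * g := e'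
      have h2 : y' * v' = v' * y' := congrArg Subtype.val
        (hfst ⟨y', hy'⟩ ⟨v', hv'C⟩ (Subgroup.mem_centralizer_singleton_iff.1 (Subgroup.mem_comap.1 hy)))
      have h1 := Subgroup.mem_centralizer_singleton_iff.1 hy'
      have ey : y = g * y' * g⁻¹ := by rw [e']; group
      constructor
      · rw [ey, ← hg, show g * y' * g⁻¹ * (g * inv0 hK * g⁻¹) = g * (y' * inv0 hK) * g⁻¹ by group, h1]
        group
      · rw [ey, show v = g * v' * g⁻¹ by rw [hv']; group,
          show g * y' * g⁻¹ * (g * v' * g⁻¹) = g * (y' * v') * g⁻¹ by group, h2]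
        group
  rw [hmap, Subgroup.card_map_of_injective (MulAut.conj g).injective,
    Subgroup.card_map_of_injective C.subtype_injective]
  have h1 := Subgroup.card_mul_index
    ((Subgroup.centralizer ({π₂ ⟨v', hv'C⟩} : Set (Matrix.ProjectiveSpecialLinearGroup (Fin 2) K))).comap π₂)
  rw [Subgroup.index_comap_of_surjective _ hπ, Nat.card_congr e.toEquiv, Nat.card_prod,
    Nat.card_eq_fintype_card (α := Multiplicative (ZMod 2)),
    show Fintype.card (Multiplicative (ZMod 2)) = 2 from rfl,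
    ← Subgroup.card_mul_index (Subgroup.centralizer ({π₂ ⟨v', hv'C⟩} :
      Set (Matrix.ProjectiveSpecialLinearGroup (Fin 2) K))), ← mul_assoc] at h1
  rw [Nat.eq_of_mul_eq_mul_right (Nat.pos_of_ne_zero Subgroup.index_ne_zero_of_finite) h1, hcC]

omit hK in
theorem norm_map {S A : Subgroup ↥(twistedG2 K (3 ^ m))} (c : ↥(twistedG2 K (3 ^ m)))
    (h : S.map (MulAut.conj c).toMonoidHom ≤ Subgroup.normalizer (A : Set ↥(twistedG2 K (3 ^ m)))) :
    S ≤ Subgroup.normalizer ((A.map (MulAut.conj c⁻¹).toMonoidHom : Subgroup ↥(twistedG2 K (3 ^ m))) :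
      Set ↥(twistedG2 K (3 ^ m))) := by
  intro s hs
  rw [← Subgroup.map_equiv_normalizer_eq, Subgroup.mem_map_equiv]
  refine h (Subgroup.mem_map.2 ⟨s, hs, ?_⟩)
  simp [MulAut.conj_symm_apply, mul_assoc]

theorem norm_elem (hm : 1 ≤ m) {S E : Subgroup ↥(twistedG2 K (3 ^ m))} {p : ℕ} (hp : p.Prime)
    (hE : E ≠ ⊥) (hab : ∀ a ∈ E, ∀ b ∈ E, a * b = b * a) (hexp : ∀ a ∈ E, a ^ p = 1)
    (hS : S ≤ Subgroup.normalizer (E : Set ↥(twistedG2 K (3 ^ m)))) (h2 : p = 2 → 2 < Nat.card E) :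
    LocalNorm K m S := by
  classical
  haveI := Fact.mk hp
  have hpg : IsPGroup p E := fun a => ⟨1, Subtype.ext (by rw [pow_one]; exact hexp a a.2)⟩
  obtain ⟨P, hP⟩ := hpg.exists_le_sylow
  obtain ⟨x, hx, hx1⟩ := (Subgroup.bot_or_exists_ne_one E).resolve_left hE
  have hxo : orderOf x = p := orderOf_eq_prime (hexp x hx) hx1
  by_cases hp2 : p = 2
  · subst hp2
    have hc8 := sylow_two_card hK P
    have hd8 : Nat.card E ∣ 2 ^ 3 := by
      have := Subgroup.card_dvd_of_le hP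
      rwa [hc8] at this
    obtain ⟨j, hj, hj'⟩ := (Nat.dvd_prime_pow Nat.prime_two).1 hd8
    have hj2 : j = 2 ∨ j = 3 := by
      have := h2 rfl
      rw [hj'] at this
      interval_cases j <;> simp at this ⊢
    rcases hj2 with rfl | rfl
    swap
    · have e : E = (P : Subgroup ↥(twistedG2 K (3 ^ m))) :=
        Subgroup.eq_of_le_of_card_ge hP (by rw [hc8, hj']; norm_num)
      exact ⟨E, hS, Or.inl ⟨P, e⟩⟩
    -- a four group
    obtain ⟨v, hv, hv'⟩ : ∃ v ∈ E, v ∉ Subgroup.zpowers x := by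
      by_contra hall
      push Not at hall
      have := Subgroup.card_dvd_of_le (fun v hv => hall v hv : E ≤ Subgroup.zpowers x)
      rw [Nat.card_zpowers, hxo, hj'] at this
      have := Nat.le_of_dvd (by norm_num) this
      omega
    have hsq : ∀ a ∈ E, a * a = 1 := fun a ha => by rw [← pow_two]; exact hexp a ha
    have hv1 : v ≠ 1 := fun e => hv' (e ▸ one_mem _)
    have hvx : v ≠ x := fun e => hv' (e ▸ Subgroup.mem_zpowers x)
    set W := Subgroup.centralizer ({x} : Set ↥(twistedG2 K (3 ^ m))) ⊓ Subgroup.centralizer {v}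
    have hWc := four_cent hK hm (hsq x hx) hx1 (hsq v hv) hv1 hvx (hab v hv x hx)
    have hEc : ∀ w ∈ W, ∀ a ∈ E, w * a = a * w := by
      intro w hw a ha
      have hcl : E ≤ Subgroup.centralizer ({w} : Set ↥(twistedG2 K (3 ^ m))) := by
        have e : Subgroup.closure ({x, v} : Set ↥(twistedG2 K (3 ^ m))) = E := by
          have hle : Subgroup.closure ({x, v} : Set ↥(twistedG2 K (3 ^ m))) ≤ E :=
            (Subgroup.closure_le E).2 (by rintro a (rfl | rfl) <;> assumption)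
          refine Subgroup.eq_of_le_of_card_ge hle ?_
          have hlt : Subgroup.zpowers x < Subgroup.closure ({x, v} : Set ↥(twistedG2 K (3 ^ m))) :=
            lt_of_le_of_ne (Subgroup.zpowers_le.2 (Subgroup.subset_closure (by simp))) fun e =>
              hv' (e ▸ Subgroup.subset_closure (by simp))
          have h3 : 2 < Nat.card (Subgroup.closure ({x, v} : Set ↥(twistedG2 K (3 ^ m)))) := by
            by_contra hle'
            refine hlt.ne (Subgroup.eq_of_le_of_card_ge hlt.le ?_)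
            rw [Nat.card_zpowers, hxo]; omega
          have h4 := Subgroup.card_dvd_of_le hle
          rw [hj'] at h4 ⊢
          obtain ⟨i, hi, hi'⟩ := (Nat.dvd_prime_pow Nat.prime_two).1 h4
          rw [hi'] at h3 ⊢
          interval_cases i <;> simp at h3 ⊢
        rw [← e, Subgroup.closure_le]
        rintro a (rfl | rfl)
        · exact Subgroup.mem_centralizer_singleton_iff.2 (Subgroup.mem_centralizer_singleton_iff.1 hw.1).symm
        · exact Subgroup.mem_centralizer_singleton_iff.2 (Subgroup.mem_centralizer_singleton_iff.1 hw.2).symm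
      exact (Subgroup.mem_centralizer_singleton_iff.1 (hcl ha)).symm
    have hSW : ∀ s ∈ S, ∀ w ∈ W, s * w * s⁻¹ ∈ W := by
      intro s hs w hw
      have key : ∀ a ∈ E, s * w * s⁻¹ * a = a * (s * w * s⁻¹) := fun a ha => by
        have hb : s⁻¹ * a * s ∈ E := by
          have := (Subgroup.mem_normalizer_iff.1 (inv_mem (hS hs)) a).1 ha
          rwa [inv_inv] at this
        calc s * w * s⁻¹ * a = s * (w * (s⁻¹ * a * s)) * s⁻¹ := by group
          _ = s * ((s⁻¹ * a * s) * w) * s⁻¹ := by rw [hEc w hw _ hb]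
          _ = _ := by group
      exact Subgroup.mem_inf.2 ⟨Subgroup.mem_centralizer_singleton_iff.2 (key x hx),
        Subgroup.mem_centralizer_singleton_iff.2 (key v hv)⟩
    obtain ⟨e4, ho4, h34, h14⟩ := quarter_facts hK hm
    obtain ⟨r, hr, hr3, hrh⟩ := odd_prime_of hK h14 ho4 h34
    haveI := Fact.mk hr
    have hrW : r ∣ Nat.card W := by rw [hWc]; exact (hrh.trans ⟨4, by omega⟩).mul_left 2
    obtain ⟨y, hy⟩ := exists_prime_orderOf_dvd_card' (G := W) r hrW
    obtain ⟨D, -, -, hAc, hAcyc⟩ := quarter_data hK hm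
    obtain ⟨c, hc⟩ := into_tor hK hm D hr hr3 (g := (y : ↥(twistedG2 K (3 ^ m))))
      (by rw [Subgroup.orderOf_coe, hy]) (hrh.trans ⟨4, by omega⟩)
    have hyr : ¬ orderOf (c * (y : ↥(twistedG2 K (3 ^ m))) * c⁻¹) ∣ 2 := fun h => by
      rw [show orderOf (c * (y : ↥(twistedG2 K (3 ^ m))) * c⁻¹) = r from
        (orderOf_injective (MulAut.conj c).toMonoidHom (MulAut.conj c).injective _).trans
          ((Subgroup.orderOf_coe y).trans hy)] at h
      have := Nat.le_of_dvd (by norm_num) h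
      omega
    have hT : ∀ a ∈ E, c * a * c⁻¹ ∈ D.T := fun a ha => by
      rw [← D.cent _ hc hyr, Subgroup.mem_centralizer_singleton_iff,
        show c * a * c⁻¹ * (c * y * c⁻¹) = c * (a * y) * c⁻¹ by group, ← hEc y y.2 a ha]
      group
    set W' := W.map (MulAut.conj c).toMonoidHom
    have hTW : D.T ≤ W' := by
      intro t ht
      rw [Subgroup.mem_map_equiv, MulAut.conj_symm_apply]
      have key : ∀ a ∈ E, c⁻¹ * t * c * a = a * (c⁻¹ * t * c) := fun a ha => by
        have h := congrArg Subtype.val (D.comm.is_comm.comm ⟨t, ht⟩ ⟨_, hT a ha⟩)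
        calc c⁻¹ * t * c * a = c⁻¹ * (t * (c * a * c⁻¹)) * c := by group
          _ = c⁻¹ * ((c * a * c⁻¹) * t) * c := by rw [show t * (c * a * c⁻¹) = c * a * c⁻¹ * t from h]
          _ = _ := by group
      exact Subgroup.mem_inf.2 ⟨Subgroup.mem_centralizer_singleton_iff.2 (key x hx),
        Subgroup.mem_centralizer_singleton_iff.2 (key v hv)⟩
    have hidx : (D.T.subgroupOf W').index = 2 := by
      have h := Subgroup.card_mul_index (D.T.subgroupOf W')
      rw [Nat.card_congr (Subgroup.subgroupOfEquivOfLe hTW).toEquiv, D.card,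
        Subgroup.card_map_of_injective (MulAut.conj c).injective, hWc, mul_comm 2] at h
      exact Nat.eq_of_mul_eq_mul_left (Nat.succ_pos _) h
    set k := (Fintype.card K + 1) / 4
    have hodd : ∀ w ∈ W', w ^ k = 1 → w ∈ powKer D k := fun w hw hwk => by
      refine ⟨?_, hwk⟩
      have hsq' : (⟨w, hw⟩ : W') ^ 2 ∈ D.T.subgroupOf W' := Subgroup.sq_mem_of_index_two hidx _
      have hsq'' : w ^ 2 ∈ D.T := Subgroup.mem_subgroupOf.1 hsq'
      obtain ⟨i, hi⟩ := ho4
      have e : w = (w ^ 2) ^ (i + 1) := by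
        rw [← pow_mul, show 2 * (i + 1) = k + 1 by omega, pow_succ, hwk, one_mul]
      rw [e]; exact pow_mem hsq'' _
    refine ⟨(powKer D k).map (MulAut.conj c⁻¹).toMonoidHom, norm_map c ?_, Or.inr (Or.inr ?_)⟩
    · rintro _ ⟨s, hs, rfl⟩
      have hfwd : ∀ s ∈ S, ∀ a ∈ powKer D k, c * s * c⁻¹ * a * (c * s * c⁻¹)⁻¹ ∈ powKer D k := by
        intro s hs a ha
        refine hodd _ ?_ (by rw [conj_pow, ha.2]; group)
        obtain ⟨w, hw, rfl⟩ := Subgroup.mem_map.1 (hTW ha.1)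
        refine Subgroup.mem_map.2 ⟨s * w * s⁻¹, hSW s hs w hw, ?_⟩
        simp [mul_assoc]
      rw [Subgroup.mem_normalizer_iff]
      intro a
      simp only [MulEquiv.coe_toMonoidHom, MulAut.conj_apply]
      constructor
      · exact hfwd s hs a
      · intro h
        have h' := hfwd s⁻¹ (inv_mem hs) _ h
        rwa [show c * s⁻¹ * c⁻¹ * (c * s * c⁻¹ * a * (c * s * c⁻¹)⁻¹) * (c * s⁻¹ * c⁻¹)⁻¹ = a by group] at h'
    · haveI := hAcyc
      exact ⟨isCyclic_of_surjective ((powKer D k).equivMapOfInjective _ (MulAut.conj c⁻¹).injective).toMonoidHom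
        ((powKer D k).equivMapOfInjective _ (MulAut.conj c⁻¹).injective).surjective, Or.inr (Or.inl (by
          rw [Subgroup.card_map_of_injective (MulAut.conj c⁻¹).injective, hAc]))⟩
  by_cases hp3 : p = 3
  · subst hp3
    refine ⟨P, fun s hs => ?_, Or.inr (Or.inl ⟨P, rfl⟩)⟩
    refine Sylow.smul_eq_iff_mem_normalizer.1 ?_
    by_contra hne
    have h := sylow_ti hK _ _ hne
    have hmem : x ∈ ((s • P : Sylow 3 ↥(twistedG2 K (3 ^ m))) : Subgroup ↥(twistedG2 K (3 ^ m))) := by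
      rw [Sylow.coe_subgroup_smul]
      refine ⟨s⁻¹ * x * s, hP ?_, by simp [mul_assoc]⟩
      have := (Subgroup.mem_normalizer_iff.1 (inv_mem (hS hs)) x).1 hx
      rwa [inv_inv] at this
    exact hx1 (Subgroup.mem_bot.1 (h ▸ Subgroup.mem_inf.2 ⟨hmem, hP hx⟩))
  have hp3' : 3 < p := by have := hp.two_le; omega
  haveI := sylow_cyclic hK hm hp3' P
  have hEx : E = Subgroup.zpowers x := by
    haveI : IsCyclic E := isCyclic_of_injective (Subgroup.inclusion hP) (Subgroup.inclusion_injective hP)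
    obtain ⟨y, hy⟩ := IsCyclic.exists_ofOrder_eq_natCard (α := E)
    refine (Subgroup.eq_of_le_of_card_ge (Subgroup.zpowers_le.2 hx) ?_).symm
    rw [Nat.card_zpowers, hxo, ← hy]
    exact orderOf_le_of_pow_eq_one hp.pos (Subtype.ext (hexp y y.2))
  have fin : ∀ k N : ℕ, p ∣ k → (∃ A : Subgroup ↥(twistedG2 K (3 ^ m)), IsCyclic A ∧ Nat.card A = k ∧
      Nat.card (Subgroup.normalizer (A : Set ↥(twistedG2 K (3 ^ m)))) = N ∧
      ∀ A₀ : Subgroup ↥(twistedG2 K (3 ^ m)), A₀ ≤ A → A₀ ≠ ⊥ →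
        Subgroup.normalizer (A₀ : Set ↥(twistedG2 K (3 ^ m))) = Subgroup.normalizer (A : Set ↥(twistedG2 K (3 ^ m)))) →
      ∃ A : Subgroup ↥(twistedG2 K (3 ^ m)), IsCyclic A ∧ Nat.card A = k ∧
        S ≤ Subgroup.normalizer (A : Set ↥(twistedG2 K (3 ^ m))) := by
    rintro k N hpk ⟨A, hAc, hAk, -, hA⟩
    obtain ⟨y, hy⟩ := exists_prime_orderOf_dvd_card' (G := A) p (by rwa [hAk])
    have hyo : orderOf (y : ↥(twistedG2 K (3 ^ m))) = p := (Subgroup.orderOf_coe y).trans hy
    obtain ⟨c, hc⟩ := prime_conj hK hm hp3' hxo hyo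
    have hmap : E.map (MulAut.conj c).toMonoidHom = Subgroup.zpowers (y : ↥(twistedG2 K (3 ^ m))) := by
      rw [hEx, MonoidHom.map_zpowers]
      refine Subgroup.eq_of_le_of_card_ge (Subgroup.zpowers_le.2 hc) ?_
      rw [Nat.card_zpowers, Nat.card_zpowers, hyo]
      exact ((orderOf_injective (MulAut.conj c).toMonoidHom (MulAut.conj c).injective x).trans hxo).ge
    have hn := hA (Subgroup.zpowers (y : ↥(twistedG2 K (3 ^ m)))) (Subgroup.zpowers_le.2 y.2) (fun h => by
      rw [Subgroup.zpowers_eq_bot] at h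
      rw [h, orderOf_one] at hyo
      exact hp.one_lt.ne hyo)
    haveI := hAc
    refine ⟨A.map (MulAut.conj c⁻¹).toMonoidHom,
      isCyclic_of_surjective (A.equivMapOfInjective _ (MulAut.conj c⁻¹).injective).toMonoidHom
        (A.equivMapOfInjective _ (MulAut.conj c⁻¹).injective).surjective,
      by rw [Subgroup.card_map_of_injective (MulAut.conj c⁻¹).injective, hAk], norm_map c ?_⟩
    rw [← hn, ← hmap, ← Subgroup.map_equiv_normalizer_eq]
    exact Subgroup.map_mono hS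
  rcases prime_of_group hK hm hp hp3' (hxo ▸ orderOf_dvd_natCard x) with h | h | h
  · obtain ⟨e, -, -, -⟩ := half_facts hK hm
    rw [e] at h
    obtain ⟨A, h1, h2', h3⟩ := fin _ _ (((Nat.coprime_primes hp Nat.prime_two).2 (by omega)).dvd_of_dvd_mul_left h)
      (half_hall hK hm)
    exact ⟨A, h3, Or.inr (Or.inr ⟨h1, Or.inl h2'⟩)⟩
  · obtain ⟨e, -, -, -⟩ := quarter_facts hK hm
    rw [e] at h
    obtain ⟨A, h1, h2', h3⟩ := fin _ _
      ((((Nat.coprime_primes hp Nat.prime_two).2 (by omega)).pow_right 2).dvd_of_dvd_mul_left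
        (show p ∣ 2 ^ 2 * ((Fintype.card K + 1) / 4) from h))
      (quarter_hall hK hm)
    exact ⟨A, h3, Or.inr (Or.inr ⟨h1, Or.inr (Or.inl h2')⟩)⟩
  · rw [← hex_prod hK hm] at h
    rcases hp.dvd_mul.1 h with h | h
    · obtain ⟨A, h1, h2', h3⟩ := fin _ _ h (hex_hall hK hm (Or.inl rfl))
      exact ⟨A, h3, Or.inr (Or.inr ⟨h1, Or.inr (Or.inr (Or.inl h2'))⟩)⟩
    · obtain ⟨A, h1, h2', h3⟩ := fin _ _ h (hex_hall hK hm (Or.inr rfl))
      exact ⟨A, h3, Or.inr (Or.inr ⟨h1, Or.inr (Or.inr (Or.inr h2'))⟩)⟩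

set_option maxHeartbeats 1600000 in
theorem solvable_local (hm : 1 ≤ m) (S : Subgroup ↥(twistedG2 K (3 ^ m))) (hS : Group.IsSolvable S) :
    LocalNorm K m S := by
  classical
  haveI := Fact.mk Nat.prime_two
  have small : IsPGroup 2 S → LocalNorm K m S := fun h => by
    obtain ⟨P, hP⟩ := h.exists_le_sylow
    exact ⟨P, hP.trans Subgroup.le_normalizer, Or.inl ⟨P, rfl⟩⟩
  rcases subsingleton_or_nontrivial S with hs | hs
  · exact small (fun a => ⟨0, Subsingleton.elim _ _⟩)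
  obtain ⟨p, hp, E, hEn, hE, hab, hexp⟩ := elem_normal hS
  have lift : ∀ E : Subgroup S, E.Normal → E ≠ ⊥ → (∀ a ∈ E, ∀ b ∈ E, a * b = b * a) →
      ∀ p : ℕ, p.Prime → (∀ a ∈ E, a ^ p = 1) → (p = 2 → 2 < Nat.card E) → LocalNorm K m S := by
    intro E hEn hE hab p hp hexp h2
    refine norm_elem hK hm (E := E.map S.subtype) hp ?_ ?_ ?_ ?_ fun h => ?_
    · exact fun h => hE ((Subgroup.map_eq_bot_iff_of_injective _ S.subtype_injective).1 h)
    · rintro _ ⟨a, ha, rfl⟩ _ ⟨b, hb, rfl⟩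
      exact congrArg Subtype.val (hab a ha b hb)
    · rintro _ ⟨a, ha, rfl⟩
      exact congrArg Subtype.val (hexp a ha)
    · intro s hs'
      rw [Subgroup.mem_normalizer_iff]
      intro a
      constructor
      · rintro ⟨b, hb, rfl⟩
        exact ⟨⟨s, hs'⟩ * b * ⟨s, hs'⟩⁻¹, hEn.conj_mem b hb _, rfl⟩
      · rintro ⟨b, hb, hb'⟩
        refine ⟨⟨s, hs'⟩⁻¹ * b * ⟨s, hs'⟩, ?_, ?_⟩
        · simpa using hEn.conj_mem b hb (⟨s, hs'⟩⁻¹ : S)
        · simp only [Subgroup.coe_subtype, Subgroup.coe_mul, Subgroup.coe_inv] at hb' ⊢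
          rw [hb']; group
    · rw [Subgroup.card_map_of_injective S.subtype_injective]; exact h2 h
  by_cases h2 : p = 2 → 2 < Nat.card E
  · exact lift E hEn hE hab p hp hexp h2
  push Not at h2
  obtain ⟨rfl, hle⟩ := h2
  -- a central involution
  have hcard : Nat.card E = 2 := by
    have h1 : Nat.card E ≠ 1 := fun h => hE (Subgroup.eq_bot_of_card_eq E h)
    have h0 : 0 < Nat.card E := Nat.card_pos
    omega
  have hzc : ∀ a ∈ E, ∀ s : S, s * a = a * s := fun a ha s => by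
    by_cases ha1 : a = 1
    · simp [ha1]
    obtain ⟨u, w, huw, huniv⟩ := Nat.card_eq_two_iff.1 hcard
    have h1 : ∀ b : E, b = u ∨ b = w := fun b => by simpa using huniv.ge (Set.mem_univ b)
    have hconj : s * a * s⁻¹ ≠ 1 := fun h => ha1 (conj_eq_one_iff.1 h)
    have key : (⟨a, ha⟩ : E) = ⟨s * a * s⁻¹, hEn.conj_mem a ha s⟩ := by
      rcases h1 ⟨a, ha⟩ with e1 | e1 <;> rcases h1 ⟨_, hEn.conj_mem a ha s⟩ with e2 | e2 <;>
        rcases h1 1 with e3 | e3 <;>
        first | exact e1.trans e2.symm | exact absurd (congrArg Subtype.val (e1.trans e3.symm)) ha1 |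
          exact absurd (congrArg Subtype.val (e2.trans e3.symm)) hconj
    exact mul_inv_eq_iff_eq_mul.1 (congrArg Subtype.val key).symm
  haveI := hEn
  rcases subsingleton_or_nontrivial (S ⧸ E) with hq | hq
  · refine small ?_
    refine IsPGroup.of_card (n := 1) ?_
    rw [Subgroup.card_eq_card_quotient_mul_card_subgroup E, hcard, pow_one, Nat.card_of_subsingleton
      ((1 : S) : S ⧸ E), one_mul]
  haveI := hS
  obtain ⟨l, hl, F, hFn, hF, hFab, hFexp⟩ := elem_normal (G := S ⧸ E) inferInstance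
  haveI := hFn
  set W := F.comap (QuotientGroup.mk' E)
  have hWp : ∀ w ∈ W, w ^ l ∈ E := fun w hw => by
    rw [← QuotientGroup.eq_one_iff]
    exact hFexp _ hw
  have hE2 : ∀ a ∈ E, a * a = 1 := fun a ha => by rw [← pow_two]; exact hexp a ha
  have hWcard : Nat.card W = 2 * Nat.card F := by
    have h1 := Subgroup.card_mul_index W
    rw [Subgroup.index_comap_of_surjective _ (QuotientGroup.mk'_surjective E),
      Subgroup.card_eq_card_quotient_mul_card_subgroup E, hcard, mul_comm (Nat.card (S ⧸ E)),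
      ← Subgroup.card_mul_index F, ← mul_assoc] at h1
    exact Nat.eq_of_mul_eq_mul_right (Nat.pos_of_ne_zero Subgroup.index_ne_zero_of_finite) h1
  have hF1 : 1 < Nat.card F := by
    have h0 : 0 < Nat.card F := Nat.card_pos
    have h1 : Nat.card F ≠ 1 := fun h => hF (Subgroup.eq_bot_of_card_eq F h)
    omega
  have hWne : W ≠ ⊥ := fun h => by rw [h, Subgroup.card_bot] at hWcard; omega
  by_cases hl2 : l = 2
  · subst hl2
    have hsq : ∀ w ∈ W, w * w = 1 := fun w hw => by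
      refine Subtype.ext (four_two hK _ ?_)
      have := hE2 _ (hWp w hw)
      rw [← pow_two, ← pow_mul] at this
      exact congrArg Subtype.val this
    exact lift W inferInstance hWne
      (fun a ha b hb => comm_of_sq (hsq a ha) (hsq b hb) (hsq _ (mul_mem ha hb))) 2 Nat.prime_two
      (fun a ha => by rw [pow_two]; exact hsq a ha) (fun _ => by omega)
  -- the odd part of the preimage
  have hWab : ∀ a ∈ W, ∀ b ∈ W, a * b = b * a := by
    intro a ha b hb
    set d := a * b * a⁻¹ * b⁻¹ with hd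
    have hdE : d ∈ E := by
      rw [← QuotientGroup.eq_one_iff, hd]
      simp only [QuotientGroup.mk_mul, QuotientGroup.mk_inv]
      rw [show (a : S ⧸ E) * (b : S ⧸ E) = (b : S ⧸ E) * (a : S ⧸ E) from hFab _ ha _ hb]; group
    have hstep : ∀ n : ℕ, a ^ n * b * (a ^ n)⁻¹ = d ^ n * b := by
      intro n
      induction n with
      | zero => simp
      | succ n ih =>
        rw [pow_succ' a n, show a * a ^ n * b * (a * a ^ n)⁻¹ = a * (a ^ n * b * (a ^ n)⁻¹) * a⁻¹ by group, ih,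
          show a * (d ^ n * b) * a⁻¹ = (a * d ^ n) * b * a⁻¹ by group, hzc _ (pow_mem hdE n) a,
          show d ^ n * a * b * a⁻¹ = d ^ n * (a * b * a⁻¹ * b⁻¹) * b by group, ← hd, pow_succ]
    have h := hstep l
    rw [← hzc _ (hWp a ha) b, mul_inv_cancel_right, right_eq_mul] at h
    obtain ⟨i, hi⟩ := hl.odd_of_ne_two hl2
    rw [hi, pow_succ, pow_mul, pow_two, hE2 d hdE, one_pow, one_mul] at h
    rw [hd] at h
    calc a * b = a * b * a⁻¹ * b⁻¹ * (b * a) := by group
      _ = b * a := by rw [h, one_mul]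
  haveI := Fact.mk hl
  let E' : Subgroup S :=
    { carrier := {a | a ∈ W ∧ a ^ l = 1}
      one_mem' := ⟨one_mem _, one_pow l⟩
      mul_mem' := fun {a b} ha hb =>
        ⟨mul_mem ha.1 hb.1, by rw [(show Commute a b from hWab a ha.1 b hb.1).mul_pow, ha.2, hb.2, one_mul]⟩
      inv_mem' := fun {a} ha => ⟨inv_mem ha.1, by rw [inv_pow, ha.2, inv_one]⟩ }
  have hE'n : E'.Normal := ⟨fun a ha g => ⟨(inferInstance : W.Normal).conj_mem a ha.1 g,
    by rw [conj_pow, ha.2]; group⟩⟩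
  have hE'ne : E' ≠ ⊥ := by
    obtain ⟨u, hu, hu1⟩ := (Subgroup.bot_or_exists_ne_one F).resolve_left hF
    have hld : l ∣ Nat.card W := by
      rw [hWcard]
      refine Dvd.dvd.mul_left ?_ 2
      have ho : orderOf u = l := orderOf_eq_prime (hFexp u hu) hu1
      exact ho ▸ Subgroup.orderOf_dvd_natCard F hu
    obtain ⟨w, hw⟩ := exists_prime_orderOf_dvd_card' (G := W) l hld
    intro h
    have hwl : (w : S) ^ l = 1 := by rw [← hw, ← Subgroup.orderOf_coe, pow_orderOf_eq_one]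
    have hmem : (w : S) ∈ E' := ⟨w.2, hwl⟩
    rw [h, Subgroup.mem_bot] at hmem
    rw [← Subgroup.orderOf_coe, hmem, orderOf_one] at hw
    exact hl.one_lt.ne hw
  exact lift E' hE'n hE'ne (fun a ha b hb => hWab a ha.1 b hb.1) l hl (fun a ha => ha.2) (fun h => absurd h hl2)

end CfsgLib.Chev.Twisted.ReeG2
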